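import Mathlib

/-!
# S3510, box CB: the numerical part of `no_prime`

`q ≥ 2`, `n ≥ 3` prime, `D = 1 + q + ... + q^(n-1)`, `d = q^(n-1) - 1`, distinct primes `r i ∣ D`, at least two of them:
`∑ i, (1 / (d + 1) + √(D m_i) / d) < 1`, `m_i = n` if `r i = n` and `1` otherwise.
-/

set_option autoImplicit false

namespace Cfsg.Agent.H368.RC

open Finset

theorem prime_dvd_sum {q n r : ℕ} (hq : 2 ≤ q) (hn : n.Prime) (h3 : 3 ≤ n) (hr : r.Prime)
    (hD : r ∣ ∑ k ∈ range n, q ^ k) : (r = n ∧ 4 ≤ q) ∨ 2 * n + 1 ≤ r := by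
  have : Fact r.Prime := ⟨hr⟩
  have hz : ((∑ k ∈ range n, q ^ k : ℕ) : ZMod r) = 0 := (ZMod.natCast_eq_zero_iff _ _).2 hD
  push_cast at hz
  have hpow : (q : ZMod r) ^ n = 1 := by
    have h1 := mul_neg_geom_sum (q : ZMod r) n
    rw [hz, mul_zero] at h1
    exact (sub_eq_zero.1 h1.symm).symm
  by_cases h1 : (q : ZMod r) = 1
  · left
    have h2 : r = n := by
      rw [h1] at hz
      simp only [one_pow, sum_const, card_range, nsmul_eq_mul, mul_one] at hz
      exact (Nat.prime_dvd_prime_iff_eq hr hn).1 ((ZMod.natCast_eq_zero_iff _ _).1 hz)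
    refine ⟨h2, ?_⟩
    have h3' : ((q - 1 : ℕ) : ZMod r) = 0 := by
      rw [Nat.cast_sub (by omega), h1]
      simp
    have h4 := (ZMod.natCast_eq_zero_iff _ _).1 h3'
    have h5 := Nat.le_of_dvd (by omega) h4
    omega
  · right
    have h2 : orderOf (q : ZMod r) = n := by
      have : Fact n.Prime := ⟨hn⟩
      exact orderOf_eq_prime hpow h1
    have h0 : (q : ZMod r) ≠ 0 := by
      intro h0
      rw [h0, zero_pow hn.ne_zero] at hpow
      exact zero_ne_one hpow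
    have h4 : n ∣ r - 1 := by
      rw [← h2]
      exact orderOf_dvd_of_pow_eq_one (ZMod.pow_card_sub_one_eq_one h0)
    obtain ⟨t, ht⟩ := h4
    have hr2 := hr.two_le
    have ht0 : t ≠ 0 := by
      rintro rfl
      omega
    have ht1 : t ≠ 1 := by
      rintro rfl
      have h5 : r = n + 1 := by omega
      have hodd : Odd n := hn.odd_of_ne_two (by omega)
      have heven : 2 ∣ r := by
        rw [h5]
        obtain ⟨m, hm⟩ := hodd
        exact ⟨m + 1, by omega⟩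
      have := (Nat.prime_dvd_prime_iff_eq Nat.prime_two hr).1 heven
      omega
    have h6 : n * 2 ≤ n * t := Nat.mul_le_mul_left n (by omega)
    omega

theorem sum_rel {q n : ℕ} (hq : 2 ≤ q) (hn : 1 ≤ n) : ∃ T : ℕ, (∑ k ∈ range n, q ^ k) = 1 + q * T ∧
    q ^ (n - 1) - 1 = (q - 1) * T := by
  refine ⟨∑ k ∈ range (n - 1), q ^ k, ?_, ?_⟩
  · obtain ⟨m, rfl⟩ : ∃ m, n = m + 1 := ⟨n - 1, by omega⟩
    rw [sum_range_succ', pow_zero, add_comm, Nat.add_sub_cancel, mul_sum]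
    congr 1
    exact sum_congr rfl fun k _ => by rw [pow_succ, mul_comm]
  · have h1 := Nat.geomSum_eq hq (n - 1)
    rw [h1, Nat.mul_div_cancel']
    have := Nat.sub_dvd_pow_sub_pow q 1 (n - 1)
    rwa [one_pow] at this

theorem prod_dvd_of {ι : Type*} [Fintype ι] {r : ι → ℕ} (hinj : Function.Injective r) (hr : ∀ i, (r i).Prime) {D : ℕ}
    (hd : ∀ i, r i ∣ D) : ∏ i, r i ∣ D := by
  classical
  have h1 : ∏ i, r i = ∏ p ∈ Finset.univ.image r, p :=
    (Finset.prod_image (f := fun p : ℕ => p) (s := Finset.univ) (g := r) fun i _ j _ h => hinj h).symm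
  rw [h1]
  refine Finset.prod_primes_dvd D ?_ ?_
  · intro a ha
    obtain ⟨i, -, rfl⟩ := Finset.mem_image.1 ha
    exact (hr i).prime
  · intro a ha
    obtain ⟨i, -, rfl⟩ := Finset.mem_image.1 ha
    exact hd i

theorem pow_aux_a {n j : ℕ} (hn : 3 ≤ n) (hj : 1 ≤ j) : 21 * (j ^ 2 + n) ≤ 4 * (n * (2 * n + 1) ^ j) ∧
    8 * (j + 1) ≤ 16 * j + 0 * n := by
  constructor
  · induction j with
    | zero => omega
    | succ j ih =>
      rcases Nat.eq_zero_or_pos j with rfl | hj0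
      · simp only [zero_add, pow_one, one_pow]
        nlinarith
      · have h1 := ih hj0
        have h2 : 4 * (n * (2 * n + 1) ^ (j + 1)) = (2 * n + 1) * (4 * (n * (2 * n + 1) ^ j)) := by ring
        rw [h2]
        have h3 : 7 * (21 * (j ^ 2 + n)) ≤ (2 * n + 1) * (4 * (n * (2 * n + 1) ^ j)) := Nat.mul_le_mul (by omega) h1
        refine le_trans ?_ h3
        nlinarith
  · omega

theorem pow_aux_b {k : ℕ} (hk : 2 ≤ k) : 49 * k ^ 2 ≤ 4 * 7 ^ k := by
  induction k, hk using Nat.le_induction with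
  | base => norm_num
  | succ k hk ih =>
    have h1 : 4 * 7 ^ (k + 1) = 7 * (4 * 7 ^ k) := by ring
    rw [h1]
    nlinarith

theorem pow_aux_c {j : ℕ} (hj : 1 ≤ j) : 14 * j + 7 ≤ 3 * 7 ^ j := by
  induction j, hj using Nat.le_induction with
  | base => norm_num
  | succ j hj ih =>
    rw [pow_succ]
    omega

/-- case with `n` among the primes -/
theorem num_a {n j D d : ℕ} (hn : 3 ≤ n) (hj : 1 ≤ j) (hD : n * (2 * n + 1) ^ j ≤ D) (hd : 3 * (D - 1) ≤ 4 * d) :
    ((j : ℝ) + 1) / ((d : ℝ) + 1) + (j * √(D : ℝ) + √((D * n : ℕ) : ℝ)) / d < 1 := by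
  have h1 := (pow_aux_a hn hj).1
  have h2 : 21 * (j ^ 2 + n) ≤ 4 * D := h1.trans (Nat.mul_le_mul_left 4 hD)
  have h3 : 3 * 7 ^ j ≤ D := le_trans (Nat.mul_le_mul hn (Nat.pow_le_pow_left (by omega) j)) hD
  have h4 := pow_aux_c hj
  have hD21 : 21 ≤ D := by omega
  have hD' : (21 : ℝ) ≤ D := by exact_mod_cast hD21
  have h2' : 21 * ((j : ℝ) ^ 2 + n) ≤ 4 * D := by exact_mod_cast h2
  have hd' : 3 * ((D : ℝ) - 1) ≤ 4 * d := by
    have h5 : 3 * D ≤ 4 * d + 3 := by omega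
    have h6 : 3 * (D : ℝ) ≤ 4 * d + 3 := by exact_mod_cast h5
    linarith
  have hdpos : (0 : ℝ) < d := by linarith
  have hj8 : 8 * ((j : ℝ) + 1) ≤ (d : ℝ) + 1 := by
    have h5 : 8 * (j + 1) ≤ d + 1 := by omega
    exact_mod_cast h5
  -- the square roots
  have hS : j * √(D : ℝ) + √((D * n : ℕ) : ℝ) ≤ 0.618 * D := by
    apply le_of_sq_le_sq ?_ (by positivity) |>.trans le_rfl
    have e1 : √(D : ℝ) ^ 2 = D := Real.sq_sqrt (by positivity)
    have e2 : √((D * n : ℕ) : ℝ) ^ 2 = D * n := by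
      rw [Real.sq_sqrt (by positivity)]
      push_cast
      ring
    have e3 : (j * √(D : ℝ) + √((D * n : ℕ) : ℝ)) ^ 2 ≤ 2 * ((j : ℝ) ^ 2 * D + D * n) := by
      nlinarith [sq_nonneg (j * √(D : ℝ) - √((D * n : ℕ) : ℝ))]
    refine e3.trans ?_
    nlinarith
  have h5 : (j * √(D : ℝ) + √((D * n : ℕ) : ℝ)) / d ≤ 0.8652 := by
    rw [div_le_iff₀ hdpos]
    nlinarith
  have h6 : ((j : ℝ) + 1) / ((d : ℝ) + 1) ≤ 1 / 8 := by
    rw [div_le_iff₀ (by positivity)]
    linarith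
  norm_num at h5 h6 ⊢
  linarith

/-- case without `n` -/
theorem num_b {k D d : ℕ} (hk : 2 ≤ k) (hD : 7 ^ k ≤ D) (hd : D - 1 ≤ 2 * d) :
    (k : ℝ) / ((d : ℝ) + 1) + k * √(D : ℝ) / d < 1 := by
  have h1 := pow_aux_b hk
  have h2 : 49 * k ^ 2 ≤ 4 * D := h1.trans (Nat.mul_le_mul_left 4 hD)
  have hD49 : 49 ≤ D := le_trans (by
    calc 49 = 7 ^ 2 := by norm_num
      _ ≤ 7 ^ k := Nat.pow_le_pow_right (by norm_num) hk) hD
  have hD' : (49 : ℝ) ≤ D := by exact_mod_cast hD49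
  have h2' : 49 * (k : ℝ) ^ 2 ≤ 4 * D := by exact_mod_cast h2
  have hd' : (D : ℝ) - 1 ≤ 2 * d := by
    have h5 : D ≤ 2 * d + 1 := by omega
    have h6 : (D : ℝ) ≤ 2 * d + 1 := by exact_mod_cast h5
    linarith
  have hdpos : (0 : ℝ) < d := by linarith
  have hk0 : (2 : ℝ) ≤ k := by exact_mod_cast hk
  have hS : k * √(D : ℝ) ≤ 2 / 7 * D := by
    apply le_of_sq_le_sq ?_ (by positivity) |>.trans le_rfl
    rw [mul_pow, Real.sq_sqrt (by positivity)]
    nlinarith
  have h5 : k * √(D : ℝ) / d ≤ 0.584 := by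
    rw [div_le_iff₀ hdpos]
    nlinarith
  have h6 : (k : ℝ) / ((d : ℝ) + 1) ≤ 0.2 := by
    rw [div_le_iff₀ (by positivity)]
    nlinarith
  norm_num at h5 h6 ⊢
  linarith

theorem num_sum {ι : Type*} [Fintype ι] [DecidableEq ι] {q n D d : ℕ} {r : ι → ℕ} (hinj : Function.Injective r) (hq : 2 ≤ q)
    (hn : n.Prime) (h3 : 3 ≤ n) (hD : D = ∑ k ∈ range n, q ^ k) (hd : d = q ^ (n - 1) - 1) (hr : ∀ i, (r i).Prime)
    (hdv : ∀ i, r i ∣ D) (h2 : 2 ≤ Fintype.card ι) :
    ∑ i, (1 / ((d : ℝ) + 1) + √((D * (if r i = n then n else 1) : ℕ) : ℝ) / d) < 1 := by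
  obtain ⟨T, hT1, hT2⟩ := sum_rel hq (by omega : 1 ≤ n)
  rw [← hD] at hT1
  rw [← hd] at hT2
  have hprod := Nat.le_of_dvd (by omega : 0 < D) (prod_dvd_of hinj hr hdv)
  rw [sum_add_distrib, sum_const, card_univ, nsmul_eq_mul, ← sum_div]
  by_cases hex : ∃ i0, r i0 = n
  · obtain ⟨i0, hi0⟩ := hex
    have hq4 : 4 ≤ q := by
      rcases prime_dvd_sum hq hn h3 (hr i0) (hD ▸ hdv i0) with h | h
      · exact h.2
      · omega
    have hother : ∀ i ∈ univ.erase i0, 2 * n + 1 ≤ r i := by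
      intro i hi
      rcases prime_dvd_sum hq hn h3 (hr i) (hD ▸ hdv i) with h | h
      · exact absurd (hinj (h.1.trans hi0.symm)) (ne_of_mem_erase hi)
      · exact h
    have hne : ∀ i ∈ univ.erase i0, r i ≠ n := by
      intro i hi
      have := hother i hi
      omega
    set j := Fintype.card ι - 1 with hj
    have hcard : (univ.erase i0).card = j := by rw [card_erase_of_mem (mem_univ _), card_univ]
    have hDj : n * (2 * n + 1) ^ j ≤ D := by
      refine le_trans ?_ hprod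
      rw [← mul_prod_erase univ r (mem_univ i0), hi0]
      refine Nat.mul_le_mul_left n ?_
      rw [← hcard, ← prod_const]
      exact prod_le_prod' hother
    have hdD : 3 * (D - 1) ≤ 4 * d := by
      rw [hT1, hT2]
      obtain ⟨p, rfl⟩ : ∃ p, q = p + 1 := ⟨q - 1, by omega⟩
      simp only [Nat.add_sub_cancel_left, Nat.add_sub_cancel]
      nlinarith
    have key := num_a h3 (by omega : 1 ≤ j) hDj hdD
    have e1 : (Fintype.card ι : ℝ) = j + 1 := by
      rw [hj, Nat.cast_sub (by omega)]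
      push_cast
      ring
    have e2 : ∑ i, √((D * (if r i = n then n else 1) : ℕ) : ℝ) = j * √(D : ℝ) + √((D * n : ℕ) : ℝ) := by
      rw [← add_sum_erase univ _ (mem_univ i0), if_pos hi0, add_comm]
      congr 1
      rw [sum_congr rfl (g := fun _ => √(D : ℝ)) (fun i hi => by rw [if_neg (hne i hi), mul_one]), sum_const, hcard,
        nsmul_eq_mul]
    rw [e1, e2, mul_one_div]
    exact key
  · push Not at hex
    have hall : ∀ i, 7 ≤ r i := by
      intro i
      rcases prime_dvd_sum hq hn h3 (hr i) (hD ▸ hdv i) with h | h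
      · exact absurd h.1 (hex i)
      · omega
    have hDk : 7 ^ Fintype.card ι ≤ D := by
      refine le_trans ?_ hprod
      rw [← card_univ, ← prod_const]
      exact prod_le_prod' fun i _ => hall i
    have hdD : D - 1 ≤ 2 * d := by
      rw [hT1, hT2]
      obtain ⟨p, rfl⟩ : ∃ p, q = p + 1 := ⟨q - 1, by omega⟩
      simp only [Nat.add_sub_cancel_left, Nat.add_sub_cancel]
      nlinarith
    have key := num_b h2 hDk hdD
    have e2 : ∑ i, √((D * (if r i = n then n else 1) : ℕ) : ℝ) = Fintype.card ι * √(D : ℝ) := by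
      rw [sum_congr rfl (g := fun _ => √(D : ℝ)) (fun i _ => by rw [if_neg (hex i), mul_one]), sum_const, card_univ,
        nsmul_eq_mul]
    rw [e2, mul_one_div]
    exact key

end Cfsg.Agent.H368.RC
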